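import Mathlib
import Cfsg.Agent.Lib.Helper75.LW.Defs

set_option autoImplicit false

/-! LW (S0746) package [EXT] (helper46). -/

namespace Cfsg.Agent.Lib.Helper46.LW

open Cfsg.Agent.Lib.Helper75.LW

universe u

/-- [EXT] -/
theorem pkgExt : PkgExt.{u} := by
  intro α _ _ G t Λ φ hΛ hT hφ
  let e : Λ ≃ Fin t := Λ.equivFinOfCardEq hΛ
  let x : Fin t ↪ α := ⟨fun i => ((e.symm i : Λ) : α), fun i j h => e.symm.injective (Subtype.ext h)⟩
  let y : Fin t ↪ α := ⟨fun i => φ ((e.symm i : Λ) : α), fun i j h =>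
    e.symm.injective (Subtype.ext (hφ (e.symm i).2 (e.symm j).2 h))⟩
  obtain ⟨g, hg, hgx⟩ := hT x y
  refine ⟨g, hg, fun a ha => ?_⟩
  have h1 : g (((e.symm (e ⟨a, ha⟩) : Λ) : α)) = φ (((e.symm (e ⟨a, ha⟩) : Λ) : α)) :=
    hgx (e ⟨a, ha⟩)
  rw [Equiv.symm_apply_apply] at h1
  exact h1
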