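import Mathlib
import Cfsg.Agent.Lib.Helper75.LW.Defs

set_option autoImplicit false

/-! LW (S0746) package [FREE] (helper46). -/

namespace Cfsg.Agent.Lib.Helper46.LW

open Cfsg.Agent.Lib.Helper75.LW

universe u

/-- the action of the pointwise stabiliser of `s` on the complement of `s` -/
@[reducible] def complAction {α : Type u} (G : Subgroup (Equiv.Perm α)) (s : Finset α) :
    MulAction ↥(PS G s) {a : α // a ∉ s} where
  smul g a := ⟨(g : Equiv.Perm α) a, fun h => a.2 (by
    have h1 : (g : Equiv.Perm α) ((g : Equiv.Perm α) a) = (g : Equiv.Perm α) a := g.2.2 _ h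
    have h2 : (g : Equiv.Perm α) a = a := (g : Equiv.Perm α).injective h1
    rw [← h2]; exact h)⟩
  one_smul a := Subtype.ext rfl
  mul_smul g h a := Subtype.ext rfl

theorem complAction_coe {α : Type u} (G : Subgroup (Equiv.Perm α)) (s : Finset α)
    (g : ↥(PS G s)) (a : {a : α // a ∉ s}) :
    (((complAction G s).toSMul.smul g a : {a : α // a ∉ s}) : α) = (g : Equiv.Perm α) a := rfl

/-- the stabilisers of the action on the complement are trivial -/
theorem compl_stab_bot {α : Type u} [DecidableEq α] (G : Subgroup (Equiv.Perm α))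
    (s : Finset α) (hT : Triv G (s.card + 1)) (b : {a : α // a ∉ s}) :
    @MulAction.stabilizer ↥(PS G s) {a : α // a ∉ s} _ (complAction G s) b = ⊥ := by
  letI := complAction G s
  rw [eq_bot_iff]
  intro g hg
  rw [MulAction.mem_stabilizer_iff] at hg
  rw [Subgroup.mem_bot]
  apply Subtype.ext
  apply hT (insert (b : α) s) (by rw [Finset.card_insert_of_notMem b.2]) (g : Equiv.Perm α) g.2.1
  intro a ha
  rcases Finset.mem_insert.mp ha with rfl | ha
  · exact congrArg Subtype.val hg
  · exact g.2.2 a ha

theorem card_compl {α : Type u} [Fintype α] [DecidableEq α] (s : Finset α) :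
    Nat.card {a : α // a ∉ s} = Fintype.card α - s.card := by
  rw [Nat.card_eq_fintype_card, Fintype.card_subtype_compl, Fintype.card_coe]

/-- [FREE] -/
theorem pkgFree : PkgFree.{u} := by
  intro α _ _ G s hT
  letI := complAction G s
  have e := MulAction.selfEquivOrbitsQuotientProd (compl_stab_bot G s hT)
  have h1 := Nat.card_congr e
  rw [Nat.card_prod, card_compl] at h1
  exact Dvd.intro_left _ h1.symm
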