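import Mathlib
import Cfsg.Agent.Lib.Helper75.LW.Defs
import Cfsg.Agent.Lib.Helper46.LW.Free

set_option autoImplicit false

/-! LW (S0746) package [NT] (helper46). -/

namespace Cfsg.Agent.Lib.Helper46.LW

open Cfsg.Agent.Lib.Helper75.LW

universe u

/-- [NT] -/
theorem pkgNT : PkgNT.{u} := by
  intro α _ _ G t s hs hT hTriv hnT hcard
  apply hnT
  letI := complAction G s
  have hst : ∀ b : {a : α // a ∉ s}, MulAction.stabilizer ↥(PS G s) b = ⊥ :=
    compl_stab_bot G s (hs ▸ hTriv)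
  have e := MulAction.selfEquivOrbitsQuotientProd hst
  have h1 := Nat.card_congr e
  rw [Nat.card_prod, card_compl, hcard, hs] at h1
  intro x y
  let es : s ≃ Fin t := s.equivFinOfCardEq hs
  let e0 : Fin t ↪ α := ⟨fun i => ((es.symm i : s) : α), fun i j h =>
    es.symm.injective (Subtype.ext h)⟩
  let x' : Fin t ↪ α := ⟨fun i => x (Fin.castSucc i), fun i j h =>
    Fin.castSucc_injective _ (x.injective h)⟩
  let y' : Fin t ↪ α := ⟨fun i => y (Fin.castSucc i), fun i j h =>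
    Fin.castSucc_injective _ (y.injective h)⟩
  obtain ⟨g₁, hg₁, h1x⟩ := hT x' e0
  obtain ⟨g₂, hg₂, h2y⟩ := hT y' e0
  have he0s : ∀ i : Fin t, e0 i ∈ s := fun i => (es.symm i).2
  have hmem : ∀ a ∈ s, ∃ i : Fin t, e0 i = a := by
    intro a ha
    refine ⟨es ⟨a, ha⟩, ?_⟩
    show ((es.symm (es ⟨a, ha⟩) : s) : α) = a
    rw [Equiv.symm_apply_apply]
  have hx1 : g₁ (x (Fin.last t)) ∉ s := by
    intro h
    obtain ⟨i, hi⟩ := hmem _ h
    rw [← h1x i] at hi
    have h2 : Fin.castSucc i = Fin.last t := x.injective (g₁.injective hi)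
    exact absurd h2 (Fin.castSucc_lt_last i).ne
  have hy1 : g₂ (y (Fin.last t)) ∉ s := by
    intro h
    obtain ⟨i, hi⟩ := hmem _ h
    rw [← h2y i] at hi
    have h2 : Fin.castSucc i = Fin.last t := y.injective (g₂.injective hi)
    exact absurd h2 (Fin.castSucc_lt_last i).ne
  have hpos : 0 < Fintype.card α - t := by
    rw [← hs, ← card_compl]
    have : Nonempty {a : α // a ∉ s} := ⟨⟨_, hx1⟩⟩
    exact Nat.card_pos
  have hq1 : Nat.card (Quotient (MulAction.orbitRel ↥(PS G s) {a : α // a ∉ s})) = 1 := by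
    have h2 : Nat.card (Quotient (MulAction.orbitRel ↥(PS G s) {a : α // a ∉ s})) *
        (Fintype.card α - t) = 1 * (Fintype.card α - t) := by
      rw [one_mul]; exact h1.symm
    exact Nat.eq_of_mul_eq_mul_right hpos h2
  have hsub : Subsingleton (MulAction.orbitRel.Quotient ↥(PS G s) {a : α // a ∉ s}) :=
    (Nat.card_eq_one_iff_unique.mp hq1).1
  have htr : MulAction.IsPretransitive ↥(PS G s) {a : α // a ∉ s} :=
    (MulAction.pretransitive_iff_subsingleton_quotient _ _).mpr hsub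
  obtain ⟨k, hk⟩ := htr.exists_smul_eq (⟨g₁ (x (Fin.last t)), hx1⟩ : {a : α // a ∉ s})
    ⟨g₂ (y (Fin.last t)), hy1⟩
  have hk' : (k : Equiv.Perm α) (g₁ (x (Fin.last t))) = g₂ (y (Fin.last t)) :=
    congrArg Subtype.val hk
  refine ⟨g₂⁻¹ * (k : Equiv.Perm α) * g₁, G.mul_mem (G.mul_mem (G.inv_mem hg₂) k.2.1) hg₁, ?_⟩
  intro i
  rcases Fin.eq_castSucc_or_eq_last i with ⟨j, rfl⟩ | rfl
  · have h3 : g₁ (x (Fin.castSucc j)) = e0 j := h1x j
    have h4 : g₂ (y (Fin.castSucc j)) = e0 j := h2y j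
    rw [Equiv.Perm.mul_apply, Equiv.Perm.mul_apply, h3, k.2.2 (e0 j) (he0s j), ← h4]
    simp
  · rw [Equiv.Perm.mul_apply, Equiv.Perm.mul_apply, hk']
    simp
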