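import Mathlib
import Cfsg.Agent.Lib.Helper75.LW.Defs

set_option autoImplicit false

/-! LW (S0746) package [TRANSP] (helper46). -/

namespace Cfsg.Agent.Lib.Helper46.LW

open Cfsg.Agent.Lib.Helper75.LW

universe u

/-- [TRANSP] -/
theorem pkgTransp (hExt : PkgExt.{u}) : PkgTransp.{u} := by
  intro α _ _ G t Λ p q hΛ hT hNI hp hq hpq
  obtain ⟨g, hg, hgΛ⟩ := hExt G t Λ (Equiv.swap p q) hΛ hT ((Equiv.swap p q).injective.injOn)
  have hswΛ : ∀ a ∈ Λ, Equiv.swap p q a ∈ Λ := by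
    intro a ha
    by_cases h1 : a = p
    · rw [h1, Equiv.swap_apply_left]; exact hq
    · by_cases h2 : a = q
      · rw [h2, Equiv.swap_apply_right]; exact hp
      · rw [Equiv.swap_apply_of_ne_of_ne h1 h2]; exact ha
  have hpow : ∀ m : ℕ, ∀ a ∈ Λ, (g ^ m) a ∈ Λ ∧ (g ^ m) a = ((Equiv.swap p q) ^ m) a := by
    intro m
    induction m with
    | zero => intro a ha; exact ⟨by simpa using ha, by simp⟩
    | succ m ih =>
      intro a ha
      obtain ⟨h1, h2⟩ := ih a ha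
      have h3 : (g ^ (m + 1)) a = ((Equiv.swap p q) ^ (m + 1)) a := by
        rw [pow_succ', pow_succ', Equiv.Perm.mul_apply, Equiv.Perm.mul_apply, hgΛ _ h1, h2]
      refine ⟨?_, h3⟩
      rw [h3, pow_succ', Equiv.Perm.mul_apply, ← h2]
      exact hswΛ _ h1
  have hodd : Odd (Nat.card ↥(PS G Λ)) := by
    rw [← Nat.not_even_iff_odd]
    intro heven
    have h2 : Fact (Nat.Prime 2) := ⟨Nat.prime_two⟩
    obtain ⟨u, hu⟩ := exists_prime_orderOf_dvd_card' (G := ↥(PS G Λ)) 2 heven.two_dvd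
    have hu2 : (u : Equiv.Perm α) * (u : Equiv.Perm α) = 1 := by
      have h3 : u ^ 2 = 1 := by rw [← hu]; exact pow_orderOf_eq_one u
      have h4 := congrArg (fun w : ↥(PS G Λ) => (w : Equiv.Perm α)) h3
      simpa [pow_two] using h4
    have hu1 : (u : Equiv.Perm α) = 1 := hNI Λ hΛ (u : Equiv.Perm α) u.2.1 hu2 u.2.2
    have hu1' : u = 1 := Subtype.ext hu1
    rw [hu1', orderOf_one] at hu
    omega
  have hgg : g * g ∈ PS G Λ := by
    refine ⟨G.mul_mem hg hg, fun a ha => ?_⟩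
    rw [Equiv.Perm.mul_apply, hgΛ a ha, hgΛ _ (hswΛ a ha), Equiv.swap_apply_self]
  have hggpow : (g * g) ^ Nat.card ↥(PS G Λ) = 1 := by
    have h3 := pow_card_eq_one' (G := ↥(PS G Λ)) (x := ⟨g * g, hgg⟩)
    exact congrArg (fun w : ↥(PS G Λ) => (w : Equiv.Perm α)) h3
  have hswpow : (Equiv.swap p q) ^ Nat.card ↥(PS G Λ) = Equiv.swap p q := by
    obtain ⟨k, hk⟩ := hodd
    rw [hk, pow_succ, pow_mul, pow_two, Equiv.swap_mul_self, one_pow, one_mul]
  refine ⟨g ^ Nat.card ↥(PS G Λ), G.pow_mem hg _, ?_, ?_, ?_, ?_⟩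
  · rw [← (Commute.refl g).mul_pow]; exact hggpow
  · rw [(hpow _ p hp).2, hswpow, Equiv.swap_apply_left]
  · rw [(hpow _ q hq).2, hswpow, Equiv.swap_apply_right]
  · intro s hs hsp hsq
    rw [(hpow _ s hs).2, hswpow, Equiv.swap_apply_of_ne_of_ne hsp hsq]
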